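import Mathlib

/-!
Normal basis elements for a finite group acting on a commutative Artinian ring with trivial inertia.
-/

set_option autoImplicit false
set_option linter.style.haveILetI false

namespace CfsgLib.FrobModule

open scoped Matrix

variable {R H : Type*} [CommRing R] [Group H] [Fintype H] [DecidableEq H] [MulSemiringAction H R]

/-- The group matrix of an element. -/
def groupMatrix (θ : R) : Matrix H H R := Matrix.of fun g h => (g * h) • θ

/-- The field case: a normal basis element separates. -/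
theorem exists_separating {K S : Type*} [Field K] [Group S] [Fintype S] [MulSemiringAction S K]
    [FaithfulSMul S K] :
    ∃ α : K, ∀ c : S → K, (∀ t : S, ∑ s, c s * ((s * t) • α) = 0) → c = 0 := by
  let L := FixedPoints.subfield S K
  let b := IsGalois.normalBasis L K
  refine ⟨b 1, fun c hc => ?_⟩
  let e : S ≃* Gal(K/L) := FixedPoints.toAlgAutMulEquiv S K
  have hb : ∀ t : S, b (e t) = t • b 1 := fun t => IsGalois.normalBasis_apply (e t)
  let F : K →ₗ[L] K :=
    { toFun := fun x => ∑ s, c s * (s • x)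
      map_add' := fun x y => by simp only [smul_add, mul_add, Finset.sum_add_distrib]
      map_smul' := fun l x => by
        simp only [RingHom.id_apply, Finset.smul_sum]
        refine Finset.sum_congr rfl fun s _ => ?_
        rw [smul_comm s l x, mul_smul_comm] }
  have hF : F = 0 := b.ext fun g => by
    obtain ⟨t, rfl⟩ := e.surjective g
    show ∑ s, c s * (s • b (e t)) = 0
    rw [hb]
    simpa only [smul_smul] using hc t
  have hind : LinearIndependent K (fun s : S => ⇑((MulSemiringAction.toRingHom S K s : K →+* K) : K →* K)) :=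
    (linearIndependent_monoidHom K K).comp (fun s : S => ((MulSemiringAction.toRingHom S K s : K →+* K) : K →* K))
      fun s t h => FaithfulSMul.eq_of_smul_eq_smul fun x : K => DFunLike.congr_fun h x
  funext s
  refine Fintype.linearIndependent_iff.1 hind c ?_ s
  funext x
  simp only [Finset.sum_apply, Pi.smul_apply, smul_eq_mul, Pi.zero_apply]
  exact LinearMap.congr_fun hF x

/-- If no non-identity element fixes a maximal ideal and its residue field, some group matrix is invertible. -/
theorem exists_isUnit_groupMatrix [IsArtinianRing R]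
    (hfaith : ∀ m : Ideal R, m.IsMaximal → ∀ h : H, h ≠ 1 → (∀ r, r ∈ m ↔ h • r ∈ m) → ∃ r, h • r - r ∉ m) :
    ∃ θ : R, IsUnit (groupMatrix (H := H) θ).det := by
  classical
  letI act : MulAction H (MaximalSpectrum R) :=
    { smul := fun g m => ⟨m.asIdeal.comap (MulSemiringAction.toRingHom H R g⁻¹),
        Ideal.comap_isMaximal_of_surjective _ (MulAction.surjective g⁻¹)
          (H := m.isMaximal)⟩
      one_smul := fun m => MaximalSpectrum.ext (by
        ext r
        show ((1 : H)⁻¹ • r) ∈ m.asIdeal ↔ _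
        rw [inv_one, one_smul])
      mul_smul := fun g h m => MaximalSpectrum.ext (by
        ext r
        show ((g * h)⁻¹ • r) ∈ m.asIdeal ↔ h⁻¹ • g⁻¹ • r ∈ m.asIdeal
        rw [mul_inv_rev, mul_smul]) }
  have hmem : ∀ (g : H) (m : MaximalSpectrum R) (r : R), r ∈ (g • m).asIdeal ↔ g⁻¹ • r ∈ m.asIdeal :=
    fun _ _ _ => Iff.rfl
  haveI := Fintype.ofFinite (MaximalSpectrum R)
  -- local normal elements
  have hloc : ∀ m : MaximalSpectrum R, ∃ a : R, ∀ c : MulAction.stabilizer H m → R ⧸ m.asIdeal,
      (∀ t, ∑ s, c s * Ideal.Quotient.mk m.asIdeal (((s : H) * (t : MulAction.stabilizer H m)) • a) = 0) → c = 0 := by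
    intro m
    haveI := m.isMaximal
    letI : Field (R ⧸ m.asIdeal) := Ideal.Quotient.field _
    have hst : ∀ (s : MulAction.stabilizer H m) (r : R), r ∈ m.asIdeal ↔ (s : H) • r ∈ m.asIdeal := by
      intro s r
      have h1 := hmem (s : H) m ((s : H) • r)
      rw [inv_smul_smul, MulAction.mem_stabilizer_iff.1 s.2] at h1
      exact h1.symm
    letI : MulSemiringAction (MulAction.stabilizer H m) (R ⧸ m.asIdeal) :=
      { smul := fun s => Ideal.quotientMap m.asIdeal (MulSemiringAction.toRingHom H R (s : H))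
          (fun r hr => (hst s r).1 hr)
        one_smul := fun x => by
          obtain ⟨r, rfl⟩ := Ideal.Quotient.mk_surjective x
          show Ideal.Quotient.mk _ ((1 : H) • r) = _
          rw [one_smul]
        mul_smul := fun s t x => by
          obtain ⟨r, rfl⟩ := Ideal.Quotient.mk_surjective x
          show Ideal.Quotient.mk _ (((s : H) * t) • r) = Ideal.Quotient.mk _ ((s : H) • (t : H) • r)
          rw [mul_smul]
        smul_zero := fun s => map_zero (Ideal.quotientMap m.asIdeal _ _)
        smul_add := fun s => map_add (Ideal.quotientMap m.asIdeal _ _)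
        smul_one := fun s => map_one (Ideal.quotientMap m.asIdeal _ _)
        smul_mul := fun s => map_mul (Ideal.quotientMap m.asIdeal _ _) }
    haveI : FaithfulSMul (MulAction.stabilizer H m) (R ⧸ m.asIdeal) := ⟨fun {s t} hx => by
      by_contra hne
      have hne' : ((t⁻¹ * s : MulAction.stabilizer H m) : H) ≠ 1 := fun e =>
        hne (inv_mul_eq_one.1 (Subtype.ext e)).symm
      obtain ⟨r, hr⟩ := hfaith _ m.isMaximal _ hne' (hst _)
      refine hr (Ideal.Quotient.eq.1 ?_)
      show (t⁻¹ * s) • Ideal.Quotient.mk m.asIdeal r = Ideal.Quotient.mk m.asIdeal r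
      rw [mul_smul, hx, inv_smul_smul]⟩
    obtain ⟨α, hα⟩ := exists_separating (K := R ⧸ m.asIdeal) (S := MulAction.stabilizer H m)
    obtain ⟨a, rfl⟩ := Ideal.Quotient.mk_surjective α
    exact ⟨a, fun c hc => hα c fun t => hc t⟩
  choose a ha using hloc
  let q : MaximalSpectrum R → MulAction.orbitRel.Quotient H (MaximalSpectrum R) := fun m => Quotient.mk'' m
  let rep : MaximalSpectrum R → MaximalSpectrum R := fun m => (q m).out
  obtain ⟨θ, hθ⟩ := Ideal.exists_forall_sub_mem_ideal (I := fun m : MaximalSpectrum R => m.asIdeal)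
    (fun m n hmn => Ideal.isCoprime_iff_sup_eq.2
      (m.isMaximal.coprime_of_ne n.isMaximal fun e => hmn (MaximalSpectrum.ext e)))
    (fun m => if rep m = m then a m else 0)
  refine ⟨θ, ?_⟩
  by_contra hu
  obtain ⟨M, hM, hdM⟩ := exists_max_ideal_of_mem_nonunits hu
  set m0 := rep ⟨M, hM⟩ with hm0
  obtain ⟨g0, hg0⟩ : ∃ g0 : H, g0 • m0 = ⟨M, hM⟩ := by
    have h1 : q m0 = q ⟨M, hM⟩ := Quotient.out_eq' _
    obtain ⟨g, hg⟩ := MulAction.orbitRel_apply.1 (Quotient.eq''.1 h1.symm)
    exact ⟨g, hg⟩
  have hrep : rep m0 = m0 := by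
    show (q m0).out = (q ⟨M, hM⟩).out
    rw [show q m0 = q ⟨M, hM⟩ from Quotient.out_eq' _]
  haveI := m0.isMaximal
  letI : Field (R ⧸ m0.asIdeal) := Ideal.Quotient.field _
  have hd0 : (groupMatrix (H := H) θ).det ∈ m0.asIdeal := by
    have h1 : g0⁻¹ • (groupMatrix (H := H) θ).det ∈ m0.asIdeal := by
      rw [← hmem, hg0]; exact hdM
    have h2 : g0⁻¹ • (groupMatrix (H := H) θ).det =
        Equiv.Perm.sign (Equiv.mulLeft g0⁻¹) * (groupMatrix (H := H) θ).det := by
      rw [← Matrix.det_permute]
      show MulSemiringAction.toRingHom H R g0⁻¹ _ = _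
      rw [RingHom.map_det]
      congr 1
      ext g h
      show g0⁻¹ • (g * h) • θ = (g0⁻¹ * g * h) • θ
      rw [smul_smul, mul_assoc]
    rw [h2] at h1
    have h3 := Ideal.mul_mem_left m0.asIdeal (Equiv.Perm.sign (Equiv.mulLeft g0⁻¹) : R) h1
    rwa [← mul_assoc, ← Int.cast_mul, ← Units.val_mul, Int.units_mul_self, Units.val_one, Int.cast_one, one_mul] at h3
  rw [← Ideal.Quotient.eq_zero_iff_mem, RingHom.map_det] at hd0
  obtain ⟨c, hc0, hc⟩ := Matrix.exists_vecMul_eq_zero_iff.2 hd0
  apply hc0
  funext g1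
  have hoff : ∀ x : H, x ∉ MulAction.stabilizer H m0 → Ideal.Quotient.mk m0.asIdeal (x • θ) = 0 := by
    intro x hx
    rw [Ideal.Quotient.eq_zero_iff_mem]
    have hne : x⁻¹ • m0 ≠ m0 := fun e => hx (by
      rw [MulAction.mem_stabilizer_iff]; exact (inv_smul_eq_iff.1 e).symm)
    have hq : q (x⁻¹ • m0) = q m0 := Quotient.eq''.2 (MulAction.orbitRel_apply.2 ⟨x⁻¹, rfl⟩)
    have hnr : ¬ rep (x⁻¹ • m0) = x⁻¹ • m0 := fun e => hne (by
      rw [← e]; show (q _).out = _; rw [hq]; exact hrep)
    have h1 := hθ (x⁻¹ • m0)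
    rw [if_neg hnr, sub_zero, hmem, inv_inv] at h1
    exact h1
  have hon : ∀ s : MulAction.stabilizer H m0,
      Ideal.Quotient.mk m0.asIdeal ((s : H) • θ) = Ideal.Quotient.mk m0.asIdeal ((s : H) • a m0) := by
    intro s
    rw [Ideal.Quotient.eq, ← smul_sub]
    have h1 := hθ m0
    rw [if_pos hrep] at h1
    have h2 := (hmem (s : H) m0 ((s : H) • (θ - a m0))).2 (by rwa [inv_smul_smul])
    rwa [MulAction.mem_stabilizer_iff.1 s.2] at h2
  have key := ha m0 (fun s => c ((s : H) * g1)) fun t => by
    have h1 := congrFun hc (g1⁻¹ * (t : H))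
    simp only [Matrix.vecMul, dotProduct, RingHom.mapMatrix_apply, Matrix.map_apply, groupMatrix, Matrix.of_apply,
      Pi.zero_apply] at h1
    rw [← Equiv.sum_comp (Equiv.mulRight g1)] at h1
    simp only [Equiv.coe_mulRight, mul_assoc, mul_inv_cancel_left] at h1
    rw [← Finset.sum_filter_add_sum_filter_not _ (fun x => x ∈ MulAction.stabilizer H m0),
      Finset.sum_eq_zero (s := Finset.filter (fun x => ¬ x ∈ MulAction.stabilizer H m0) _) (fun x hx => by
        rw [hoff _ fun e => (Finset.mem_filter.1 hx).2 ((Subgroup.mul_mem_cancel_right _ t.2).1 e), mul_zero]),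
      add_zero, Finset.sum_subtype (p := fun x => x ∈ MulAction.stabilizer H m0) _ (fun x => by simp)] at h1
    refine Eq.trans (Finset.sum_congr rfl fun s _ => ?_) h1
    rw [← Subgroup.coe_mul, hon (s * t)]
  simpa using congrFun key 1

end CfsgLib.FrobModule
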