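import Cfsg.Agent.FrobModule.Module

/-!
A module without fixed points of a nilpotent kernel is free over the complement.
-/

set_option autoImplicit false
set_option linter.style.haveILetI false

namespace CfsgLib.FrobModule

open scoped commutatorElement

variable {k V A : Type*} [Field k] [AddCommGroup V] [Module k V] [FiniteDimensional k V] [Group A] [Finite A]

/-- The abelian step. -/
theorem isFreeOn_top_of_abelian (ρ : Representation k A V) (N Hc : Subgroup A) [N.Normal] [Fintype Hc] [DecidableEq Hc]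
    [Fintype N] (hcard : (Nat.card N : k) ≠ 0) (hsum : ∑ z : N, ρ (z : A) = 0)
    (hcomm : ∀ z ∈ N, ∀ w ∈ N, ρ z * ρ w = ρ w * ρ z)
    (hfpf : ∀ h ∈ Hc, h ≠ 1 → ∀ z ∈ N, h * z * h⁻¹ = z → z = 1) :
    IsFreeOn (ρ.comp Hc.subtype) ⊤ := by
  classical
  set s : Set (Module.End k V) := Set.range (fun z : N => ρ (z : A))
  let S := Algebra.adjoin k s
  haveI hS : IsMulCommutative S := Algebra.isMulCommutative_adjoin k (by
    rintro _ ⟨z, rfl⟩ _ ⟨w, rfl⟩; exact hcomm z z.2 w w.2)
  have hmul_comm : ∀ x y : S, x * y = y * x := fun x y => hS.is_comm.comm x y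
  letI : CommRing S := { (inferInstance : Ring S) with mul_comm := hmul_comm }
  haveI : IsArtinianRing S := isArtinian_of_tower k (inferInstance : IsArtinian k S)
  have hinv : ∀ a : A, ρ a⁻¹ * ρ a = 1 := fun a => by rw [← map_mul, inv_mul_cancel, map_one]
  have hinv' : ∀ a : A, ρ a * ρ a⁻¹ = 1 := fun a => by rw [← map_mul, mul_inv_cancel, map_one]
  have hmem : ∀ (a : A), ∀ r ∈ S, ρ a * r * ρ a⁻¹ ∈ S := by
    intro a r hr
    induction hr using Algebra.adjoin_induction with
    | mem x hx =>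
      obtain ⟨z, rfl⟩ := hx
      exact Algebra.subset_adjoin ⟨⟨a * z * a⁻¹, (inferInstance : N.Normal).conj_mem _ z.2 a⟩, by
        simp only [map_mul]⟩
    | algebraMap c =>
      rw [← Algebra.commutes, mul_assoc, hinv', mul_one]
      exact S.algebraMap_mem c
    | add x y _ _ hx hy => rw [mul_add, add_mul]; exact S.add_mem hx hy
    | mul x y _ _ hx hy =>
      rw [show ρ a * (x * y) * ρ a⁻¹ = (ρ a * x * ρ a⁻¹) * (ρ a * y * ρ a⁻¹) by
        simp only [mul_assoc]; rw [← mul_assoc (ρ a⁻¹) (ρ a), hinv, one_mul]]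
      exact S.mul_mem hx hy
  letI : MulSemiringAction Hc S :=
    { smul := fun h r => ⟨ρ (h : A) * r * ρ (h : A)⁻¹, hmem _ _ r.2⟩
      one_smul := fun r => Subtype.ext (by
        show ρ ((1 : Hc) : A) * (r : Module.End k V) * ρ ((1 : Hc) : A)⁻¹ = r
        simp)
      mul_smul := fun g h r => Subtype.ext (by
        show ρ ((g * h : Hc) : A) * (r : Module.End k V) * ρ ((g * h : Hc) : A)⁻¹ =
          ρ (g : A) * (ρ (h : A) * (r : Module.End k V) * ρ (h : A)⁻¹) * ρ (g : A)⁻¹
        simp only [Subgroup.coe_mul, mul_inv_rev, map_mul, mul_assoc])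
      smul_zero := fun h => Subtype.ext (by
        show ρ (h : A) * ((0 : S) : Module.End k V) * ρ (h : A)⁻¹ = _
        simp)
      smul_add := fun h x y => Subtype.ext (by
        show ρ (h : A) * ((x : Module.End k V) + y) * ρ (h : A)⁻¹ = _
        rw [mul_add, add_mul]; rfl)
      smul_one := fun h => Subtype.ext (by
        show ρ (h : A) * ((1 : S) : Module.End k V) * ρ (h : A)⁻¹ = _
        rw [OneMemClass.coe_one, mul_one, hinv'])
      smul_mul := fun h x y => Subtype.ext (by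
        show ρ (h : A) * ((x : Module.End k V) * y) * ρ (h : A)⁻¹ =
          (ρ (h : A) * x * ρ (h : A)⁻¹) * (ρ (h : A) * y * ρ (h : A)⁻¹)
        simp only [mul_assoc]
        rw [← mul_assoc (ρ (h : A)⁻¹) (ρ (h : A)), hinv, one_mul]) }
  refine isFreeOn_top_of_galois (R := S) (ρ.comp Hc.subtype) S.val.toRingHom (fun h r => ?_) ?_
  · show ρ (h : A) * (r : Module.End k V) = ρ (h : A) * r * ρ (h : A)⁻¹ * ρ (h : A)
    rw [mul_assoc, hinv, mul_one]
  intro m hm h hh1 hst
  by_contra hc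
  push Not at hc
  haveI := hm
  letI : Field (S ⧸ m) := Ideal.Quotient.field m
  let ζ : N →* S :=
    { toFun := fun z => ⟨ρ (z : A), Algebra.subset_adjoin ⟨z, rfl⟩⟩
      map_one' := Subtype.ext (map_one ρ)
      map_mul' := fun x y => Subtype.ext (map_mul ρ (x : A) (y : A)) }
  let χ : N →* S ⧸ m := (Ideal.Quotient.mk m).toMonoidHom.comp ζ
  let cz : N → N := fun z => z⁻¹ * ⟨(h : A) * z * (h : A)⁻¹, (inferInstance : N.Normal).conj_mem _ z.2 h⟩
  have hbij : Function.Bijective cz := Finite.injective_iff_bijective.1 fun z w e => by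
    have e' : (z : A)⁻¹ * ((h : A) * z * (h : A)⁻¹) = (w : A)⁻¹ * ((h : A) * w * (h : A)⁻¹) :=
      congrArg Subtype.val e
    have := hfpf h h.2 (fun x => hh1 (Subtype.ext x)) ((w : A) * (z : A)⁻¹)
      (N.mul_mem w.2 (N.inv_mem z.2)) (by
        calc (h : A) * (w * (z : A)⁻¹) * (h : A)⁻¹
            = w * ((w : A)⁻¹ * ((h : A) * w * (h : A)⁻¹)) * ((z : A)⁻¹ * ((h : A) * z * (h : A)⁻¹))⁻¹ * (z : A)⁻¹ := by group
          _ = w * (z : A)⁻¹ := by rw [e']; group)
    exact Subtype.ext (mul_inv_eq_one.1 this).symm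
  have hχ1 : ∀ z, χ z = 1 := by
    intro y
    obtain ⟨z, rfl⟩ := hbij.2 y
    show χ (z⁻¹ * _) = 1
    rw [map_mul, show χ ⟨(h : A) * z * (h : A)⁻¹, _⟩ = χ z from Ideal.Quotient.eq.2 (by
      refine (congrArg (fun t => t - ζ z ∈ m) (Subtype.ext ?_ : ζ ⟨(h : A) * z * (h : A)⁻¹, _⟩ = h • ζ z)).mpr
        (hc (ζ z))
      show ρ ((h : A) * z * (h : A)⁻¹) = ρ (h : A) * ρ (z : A) * ρ (h : A)⁻¹
      simp only [map_mul]), ← map_mul, inv_mul_cancel, map_one]
  have hz : ∑ z : N, ζ z = 0 := Subtype.ext (by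
    show S.val (∑ z : N, ζ z) = S.val 0
    rw [map_sum, map_zero]; exact hsum)
  have h0 := congrArg (Ideal.Quotient.mk m) hz
  rw [map_sum, map_zero, Finset.sum_congr rfl (g := fun _ => (1 : S ⧸ m)) (fun (z : N) _ => show Ideal.Quotient.mk m (ζ z) = 1 from hχ1 z),
    Finset.sum_const, Finset.card_univ, nsmul_one, ← Nat.card_eq_fintype_card,
    ← map_natCast ((Ideal.Quotient.mk m).comp (algebraMap k S))] at h0
  exact hcard ((map_eq_zero_iff _ (RingHom.injective _)).1 h0)

omit [FiniteDimensional k V] in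
/-- In characteristic `p` a `p`-group fixes a non-zero vector of an invariant subspace. -/
theorem exists_fixed_of_isPGroup (ρ : Representation k A V) {p : ℕ} [Fact p.Prime] [CharP k p]
    (P : Subgroup A) (hP : IsPGroup p P) {U : Submodule k V} (hU : ∀ a ∈ P, ∀ x ∈ U, ρ a x ∈ U)
    (hne : U ≠ ⊥) : ∃ x ∈ U, x ≠ 0 ∧ ∀ a ∈ P, ρ a x = x := by
  classical
  obtain ⟨x0, hx0, hx0n⟩ := Submodule.exists_mem_ne_zero_of_ne_bot hne
  haveI := Fintype.ofFinite P
  let ψ : ZMod p →+* k := ZMod.castHom dvd_rfl k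
  let Φ : (P → ZMod p) →+ V := AddMonoidHom.mk' (fun c => ∑ f : P, ψ (c f) • ρ (f : A) x0)
    (fun c d => by simp only [Pi.add_apply, map_add, add_smul, Finset.sum_add_distrib])
  haveI : Finite Φ.range := Finite.of_surjective _ Φ.rangeRestrict_surjective
  have hinvt : ∀ (g : P) (c : P → ZMod p), ρ (g : A) (Φ c) = Φ (fun f => c (g⁻¹ * f)) := by
    intro g c
    show ρ (g : A) (∑ f : P, ψ (c f) • ρ (f : A) x0) = ∑ f : P, ψ (c (g⁻¹ * f)) • ρ (f : A) x0
    conv_rhs => rw [← Equiv.sum_comp (Equiv.mulLeft g)]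
    rw [map_sum]
    refine Finset.sum_congr rfl fun f _ => ?_
    rw [map_smul, Equiv.coe_mulLeft, inv_mul_cancel_left, Subgroup.coe_mul, map_mul]
    rfl
  letI : MulAction P Φ.range :=
    { smul := fun g s => ⟨ρ (g : A) s, by
        obtain ⟨c, hc⟩ := s.2
        exact ⟨_, (hinvt g c).symm.trans (by rw [hc])⟩⟩
      one_smul := fun s => Subtype.ext (by show ρ ((1 : P) : A) (s : V) = s; simp)
      mul_smul := fun g h s => Subtype.ext (by
        show ρ ((g * h : P) : A) (s : V) = ρ (g : A) (ρ (h : A) (s : V))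
        rw [Subgroup.coe_mul, map_mul]; rfl) }
  have hΦU : ∀ s : Φ.range, (s : V) ∈ U := by
    rintro ⟨_, c, rfl⟩
    exact Submodule.sum_mem _ fun f _ => U.smul_mem _ (hU f f.2 x0 hx0)
  let s0 : Φ.range := ⟨x0, Pi.single 1 1, by
    show ∑ f : P, ψ ((Pi.single 1 1 : P → ZMod p) f) • ρ (f : A) x0 = x0
    rw [Finset.sum_eq_single (1 : P) (fun f _ hf => by rw [Pi.single_eq_of_ne hf, map_zero, zero_smul])
      (fun hh => absurd (Finset.mem_univ _) hh), Pi.single_eq_same, map_one, one_smul, Subgroup.coe_one, map_one]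
    rfl⟩
  have hord : addOrderOf s0 = p := addOrderOf_eq_prime (Subtype.ext (by
    show p • x0 = 0
    rw [← Nat.cast_smul_eq_nsmul k, CharP.cast_eq_zero, zero_smul])) fun e => hx0n (congrArg Subtype.val e)
  obtain ⟨b, hb, hb0⟩ := hP.exists_fixed_point_of_prime_dvd_card_of_fixed_point Φ.range
    ((dvd_of_eq hord.symm).trans (addOrderOf_dvd_natCard s0)) (a := 0) (fun g => Subtype.ext (map_zero (ρ (g : A))))
  exact ⟨b, hΦU b, fun e => hb0 (Subtype.ext e.symm), fun a ha => congrArg Subtype.val (hb ⟨a, ha⟩)⟩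

/-- A module on which the nilpotent kernel fixes no non-zero vector is free over a complement acting freely. -/
theorem isFreeOn_of_frobenius (ρ : Representation k A V) (Fk Hc : Subgroup A) [Fk.Normal] [Fintype Hc]
    [DecidableEq Hc] (hnil : Group.IsNilpotent Fk)
    (hfpf : ∀ h ∈ Hc, h ≠ 1 → ∀ f ∈ Fk, h * f * h⁻¹ = f → f = 1) :
    ∀ (n : ℕ) (U : Submodule k V), Module.finrank k U = n → (∀ a, ∀ x ∈ U, ρ a x ∈ U) →
      (∀ x ∈ U, (∀ f ∈ Fk, ρ f x = x) → x = 0) → IsFreeOn (ρ.comp Hc.subtype) U := by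
  classical
  intro n
  induction n using Nat.strong_induction_on with
  | _ n ih =>
  intro U hn hU hfix
  by_cases hbot : U = ⊥
  · subst hbot; exact isFreeOn_bot _
  -- a normal subgroup of invertible order acting nontrivially
  let good : Subgroup A → Prop := fun N => N.Normal ∧ N ≤ Fk ∧ (Nat.card N : k) ≠ 0 ∧ ∃ z ∈ N, ∃ x ∈ U, ρ z x ≠ x
  have hgood : ∃ N, good N := by
    by_contra hnone
    push Not at hnone
    have hsyl : ∀ (q : ℕ), q.Prime → (q : k) ≠ 0 → ∀ Q : Sylow q Fk, ∀ f ∈ (Q : Subgroup Fk), ∀ x ∈ U, ρ (f : A) x = x := by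
      intro q hq hqk Q f hf x hx
      haveI := Fact.mk hq
      haveI hQn : (Q : Subgroup Fk).Normal := by
        have h := (Group.isNilpotent_of_finite_tfae (G := Fk)).out 0 3
        exact (h.1 hnil) q ⟨hq⟩ Q
      haveI := Sylow.characteristic_of_normal Q hQn
      haveI : ((Q : Subgroup Fk).map Fk.subtype).Normal := ConjAct.normal_of_characteristic_of_normal
      by_contra hne
      have h1 : ((Nat.card ((Q : Subgroup Fk).map Fk.subtype) : ℕ) : k) ≠ 0 := by
        rw [Subgroup.card_map_of_injective Fk.subtype_injective, Q.card_eq_multiplicity, Nat.cast_pow]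
        exact pow_ne_zero _ hqk
      exact hnone _ ⟨inferInstance, Subgroup.map_subtype_le _, h1, f, ⟨f, hf, rfl⟩, x, hx, hne⟩
    -- a vector fixed by all Sylow subgroups
    obtain ⟨x, hx, hx0, hall⟩ : ∃ x ∈ U, x ≠ 0 ∧ ∀ q : ℕ, q.Prime → ∃ Q : Sylow q Fk, ∀ f ∈ (Q : Subgroup Fk), ρ (f : A) x = x := by
      by_cases hp : ∃ p : ℕ, p.Prime ∧ (p : k) = 0
      · obtain ⟨p, hp, hpk⟩ := hp
        haveI := Fact.mk hp
        haveI : CharP k p := CharP.congr _ (CharP.ringChar_of_prime_eq_zero hp hpk)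
        obtain ⟨P⟩ : Nonempty (Sylow p Fk) := inferInstance
        obtain ⟨x, hx, hx0, hxP⟩ := exists_fixed_of_isPGroup ρ ((P : Subgroup Fk).map Fk.subtype)
          (P.2.map _) (fun a _ => hU a) hbot
        refine ⟨x, hx, hx0, fun q hq => ?_⟩
        by_cases hqp : q = p
        · subst hqp
          exact ⟨P, fun f hf => hxP _ ⟨f, hf, rfl⟩⟩
        · have hqk : (q : k) ≠ 0 := fun e => hqp ((Nat.prime_dvd_prime_iff_eq hp hq).1
            ((CharP.cast_eq_zero_iff k p q).1 e)).symm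
          obtain ⟨Q⟩ : Nonempty (Sylow q Fk) := inferInstance
          exact ⟨Q, fun f hf => hsyl q hq hqk Q f hf x hx⟩
      · push Not at hp
        obtain ⟨x, hx, hx0⟩ := Submodule.exists_mem_ne_zero_of_ne_bot hbot
        refine ⟨x, hx, hx0, fun q hq => ?_⟩
        obtain ⟨Q⟩ : Nonempty (Sylow q Fk) := inferInstance
        exact ⟨Q, fun f hf => hsyl q hq (hp q hq) Q f hf x hx⟩
    let St : Subgroup Fk :=
      { carrier := {f | ρ (f : A) x = x}
        one_mem' := by simp
        mul_mem' := fun {a b} ha hb => by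
          show ρ ((a : A) * b) x = x
          rw [map_mul, Module.End.mul_apply, hb, ha]
        inv_mem' := fun {a} ha => by
          show ρ ((a : A)⁻¹) x = x
          conv_lhs => rw [← (ha : ρ (a : A) x = x), ← Module.End.mul_apply, ← map_mul, inv_mul_cancel, map_one]
          rfl }
    have hSt : St = ⊤ := by
      rw [← Subgroup.index_eq_one]
      by_contra h1
      obtain ⟨q, hq, hqd⟩ := Nat.exists_prime_and_dvd h1
      haveI := Fact.mk hq
      obtain ⟨Q, hQ⟩ := hall q hq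
      exact Q.not_dvd_index (hqd.trans (Subgroup.index_dvd_of_le fun f hf => hQ f hf))
    exact hx0 (hfix x hx fun f hf => (hSt ▸ Subgroup.mem_top (⟨f, hf⟩ : Fk) : (⟨f, hf⟩ : Fk) ∈ St))
  obtain ⟨N, hN, hmin⟩ := Set.exists_min_image {N : Subgroup A | good N} (fun N => Nat.card N) (Set.toFinite _) hgood
  obtain ⟨hNn, hNF, hNk, z0, hz0, y0, hy0, hne0⟩ := hN
  haveI := hNn
  haveI := Fintype.ofFinite N
  have hN1 : N ≠ ⊥ := fun e => hne0 (by rw [e, Subgroup.mem_bot] at hz0; simp [hz0])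
  have hder : ∀ c ∈ ⁅N, N⁆, ∀ x ∈ U, ρ c x = x := by
    intro c hc x hx
    by_contra hne
    have hle : ⁅N, N⁆ ≤ N := Subgroup.commutator_le_left N N
    have hkne : ((Nat.card ↥⁅N, N⁆ : ℕ) : k) ≠ 0 := by
      obtain ⟨d, hd⟩ := Subgroup.card_dvd_of_le hle
      rw [hd, Nat.cast_mul] at hNk
      exact left_ne_zero_of_mul hNk
    have heq : ⁅N, N⁆ = N := Subgroup.eq_of_le_of_card_ge hle
      (hmin _ ⟨inferInstance, hle.trans hNF, hkne, c, hc, x, hx, hne⟩)
    haveI : Nontrivial N := (Subgroup.nontrivial_iff_ne_bot N).2 hN1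
    haveI : Group.IsNilpotent N :=
      Group.nilpotent_of_mulEquiv (Subgroup.subgroupOfEquivOfLe hNF)
    refine (IsSolvable.commutator_lt_top_of_nontrivial N).ne ?_
    apply Subgroup.map_injective N.subtype_injective
    rw [Subgroup.map_subtype_commutator, heq, ← MonoidHom.range_eq_map, Subgroup.range_subtype]
  -- the two pieces
  set σ : Module.End k V := ∑ z : N, ρ (z : A) with hσ
  have hσapp : ∀ x, σ x = ∑ z : N, ρ (z : A) x := fun x => LinearMap.sum_apply _ _ x
  have hσa : ∀ (a : A) x, ρ a (σ x) = σ (ρ a x) := by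
    intro a x
    rw [hσapp, hσapp, map_sum]
    let cjN : N ≃ N :=
      { toFun := fun z => ⟨a * z * a⁻¹, hNn.conj_mem _ z.2 a⟩
        invFun := fun z => ⟨a⁻¹ * z * a, by simpa using hNn.conj_mem _ z.2 a⁻¹⟩
        left_inv := fun z => Subtype.ext (by simp [mul_assoc])
        right_inv := fun z => Subtype.ext (by simp [mul_assoc]) }
    conv_rhs => rw [← Equiv.sum_comp cjN]
    refine Finset.sum_congr rfl fun z _ => ?_
    rw [← Module.End.mul_apply, ← map_mul]
    show _ = ρ (a * z * a⁻¹) (ρ a x)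
    rw [← Module.End.mul_apply, ← map_mul, inv_mul_cancel_right]
  let U₁ : Submodule k V := U ⊓ ⨅ z : N, LinearMap.eqLocus (ρ (z : A)) LinearMap.id
  have hU₁ : ∀ x, x ∈ U₁ ↔ x ∈ U ∧ ∀ z ∈ N, ρ z x = x := fun x => by
    simp [U₁, Submodule.mem_iInf, LinearMap.mem_eqLocus]
  let U₂ : Submodule k V := U ⊓ LinearMap.ker σ
  have hinv₁ : ∀ a, ∀ x ∈ U₁, ρ a x ∈ U₁ := by
    intro a x hx
    rw [hU₁] at hx ⊢
    refine ⟨hU a x hx.1, fun z hz => ?_⟩
    rw [← Module.End.mul_apply, ← map_mul, show z * a = a * (a⁻¹ * z * a⁻¹⁻¹) by group, map_mul,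
      Module.End.mul_apply, hx.2 _ (hNn.conj_mem _ hz a⁻¹)]
  have hinv₂ : ∀ a, ∀ x ∈ U₂, ρ a x ∈ U₂ := fun a x hx =>
    ⟨hU a x hx.1, by
      show σ (ρ a x) = 0
      rw [← hσa, show σ x = 0 from hx.2, map_zero]⟩
  have hσfix : ∀ x, (∀ z ∈ N, ρ z x = x) → σ x = (Nat.card N : k) • x := by
    intro x hx
    rw [hσapp, Finset.sum_congr rfl (fun (z : N) _ => hx z z.2), Finset.sum_const, Finset.card_univ,
      Nat.card_eq_fintype_card, Nat.cast_smul_eq_nsmul]
  have hdis : U₁ ⊓ U₂ = ⊥ := by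
    rw [Submodule.eq_bot_iff]
    rintro x ⟨h1, h2⟩
    have h3 := hσfix x ((hU₁ x).1 h1).2
    rw [show σ x = 0 from h2.2] at h3
    exact (smul_eq_zero.1 h3.symm).resolve_left hNk
  have hsup : U₁ ⊔ U₂ = U := by
    refine le_antisymm (sup_le inf_le_left inf_le_left) fun x hx => ?_
    set x1 := (Nat.card N : k)⁻¹ • σ x
    have hσU : σ x ∈ U := by rw [hσapp]; exact Submodule.sum_mem _ fun z _ => hU z x hx
    have hσN : ∀ z ∈ N, ρ z (σ x) = σ x := by
      intro z hz
      rw [hσapp, map_sum]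
      conv_rhs => rw [← Equiv.sum_comp (Equiv.mulLeft (⟨z, hz⟩ : N))]
      exact Finset.sum_congr rfl fun w _ => by rw [← Module.End.mul_apply, ← map_mul]; rfl
    refine Submodule.mem_sup.2 ⟨x1, (hU₁ _).2 ⟨U.smul_mem _ hσU, fun z hz => by rw [map_smul, hσN z hz]⟩,
      x - x1, ⟨U.sub_mem hx (U.smul_mem _ hσU), ?_⟩, by abel⟩
    show σ (x - x1) = 0
    rw [map_sub, map_smul, hσfix _ hσN, smul_smul, inv_mul_cancel₀ hNk, one_smul, sub_self]
  rw [← hsup]
  refine isFreeOn_sup _ (fun h => hinv₁ h) (fun h => hinv₂ h) hdis ?_ ?_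
  · refine ih _ ?_ U₁ rfl hinv₁ fun x hx => hfix x ((hU₁ x).1 hx).1
    rw [← hn]
    refine Submodule.finrank_lt_finrank_of_lt (lt_of_le_of_ne inf_le_left fun e => ?_)
    exact hne0 (((hU₁ y0).1 (show y0 ∈ U₁ from e ▸ hy0)).2 z0 hz0)
  · let ρ₂ : Representation k A U₂ :=
      { toFun := fun a => (ρ a).restrict (hinv₂ a)
        map_one' := LinearMap.ext fun x => Subtype.ext (by show ρ 1 (x : V) = x; rw [map_one]; rfl)
        map_mul' := fun a b => LinearMap.ext fun x => Subtype.ext (by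
          show ρ (a * b) (x : V) = ρ a (ρ b (x : V)); rw [map_mul]; rfl) }
    obtain ⟨W, -, hs, hi⟩ := isFreeOn_top_of_abelian ρ₂ N Hc hNk
      (LinearMap.ext fun x => Subtype.ext (by
        rw [LinearMap.sum_apply, Submodule.coe_sum]
        exact (hσapp x).symm.trans x.2.2))
      (fun z hz w hw => LinearMap.ext fun x => Subtype.ext (by
        show ρ z (ρ w (x : V)) = ρ w (ρ z (x : V))
        rw [← Module.End.mul_apply, ← map_mul, show z * w = ⁅z, w⁆ * (w * z) by simp [commutatorElement_def, mul_assoc],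
          map_mul, Module.End.mul_apply,
          hder _ (Subgroup.commutator_mem_commutator hz hw) _ (hU _ _ x.2.1), map_mul]
        rfl))
      (fun h hh h1 z hz => hfpf h hh h1 z (hNF hz))
    refine ⟨W.map U₂.subtype, fun y hy => ?_, fun x hx => ?_, fun f hf h0 => ?_⟩
    · obtain ⟨w, -, rfl⟩ := Submodule.mem_map.1 hy
      exact w.2
    · obtain ⟨f, hf, hfe⟩ := hs ⟨x, hx⟩ Submodule.mem_top
      refine ⟨fun h => (f h : V), fun h => ⟨f h, hf h, rfl⟩, ?_⟩
      have := congrArg Subtype.val hfe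
      rw [Submodule.coe_sum] at this
      exact this
    · choose g hg hge using fun h => Submodule.mem_map.1 (hf h)
      have : g = 0 := hi g hg (Subtype.ext (by
        rw [Submodule.coe_sum]
        refine Eq.trans (Finset.sum_congr rfl fun h _ => ?_) h0
        rw [← hge h]; rfl))
      funext h
      rw [← hge h, congrFun this h]
      rfl

end CfsgLib.FrobModule
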