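import Cfsg.Agent.FrobModule.Galois

/-!
Freeness over a group acting semilinearly over an Artinian commutative algebra of endomorphisms.
-/

set_option autoImplicit false
set_option linter.style.haveILetI false

namespace CfsgLib.FrobModule

variable {k V H : Type*} [Field k] [AddCommGroup V] [Module k V] [Group H] [Fintype H]

/-- `U` is a free module for `H`, with a witness `W`. -/
def IsFreeOn (τ : Representation k H V) (U : Submodule k V) : Prop :=
  ∃ W : Submodule k V, W ≤ U ∧ (∀ x ∈ U, ∃ f : H → V, (∀ h, f h ∈ W) ∧ ∑ h, τ h (f h) = x) ∧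
    ∀ f : H → V, (∀ h, f h ∈ W) → ∑ h, τ h (f h) = 0 → f = 0

theorem isFreeOn_bot (τ : Representation k H V) : IsFreeOn τ ⊥ := by
  refine ⟨⊥, le_rfl, fun x hx => ⟨0, fun h => zero_mem _, ?_⟩, fun f hf _ => funext fun h => ?_⟩
  · simp [(Submodule.mem_bot k).1 hx]
  · exact (Submodule.mem_bot k).1 (hf h)

/-- A direct sum of free modules is free. -/
theorem isFreeOn_sup (τ : Representation k H V) {U₁ U₂ : Submodule k V}
    (h₁ : ∀ (h : H), ∀ x ∈ U₁, τ h x ∈ U₁) (h₂ : ∀ (h : H), ∀ x ∈ U₂, τ h x ∈ U₂)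
    (hdis : U₁ ⊓ U₂ = ⊥) (hf₁ : IsFreeOn τ U₁) (hf₂ : IsFreeOn τ U₂) : IsFreeOn τ (U₁ ⊔ U₂) := by
  classical
  obtain ⟨W₁, hW₁, hs₁, hi₁⟩ := hf₁
  obtain ⟨W₂, hW₂, hs₂, hi₂⟩ := hf₂
  refine ⟨W₁ ⊔ W₂, sup_le_sup hW₁ hW₂, fun x hx => ?_, fun f hf h0 => ?_⟩
  · obtain ⟨y, hy, z, hz, rfl⟩ := Submodule.mem_sup.1 hx
    obtain ⟨f, hf, rfl⟩ := hs₁ y hy
    obtain ⟨g, hg, rfl⟩ := hs₂ z hz
    refine ⟨f + g, fun h => Submodule.add_mem_sup (hf h) (hg h), ?_⟩
    simp only [Pi.add_apply, map_add, Finset.sum_add_distrib]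
  · choose f₁ hf₁ f₂ hf₂ hfe using fun h => Submodule.mem_sup.1 (hf h)
    simp_rw [← hfe, map_add, Finset.sum_add_distrib] at h0
    have hm : ∑ h, τ h (f₁ h) ∈ U₁ ⊓ U₂ := by
      refine ⟨Submodule.sum_mem _ fun h _ => h₁ h _ (hW₁ (hf₁ h)), ?_⟩
      rw [eq_neg_of_add_eq_zero_left h0]
      exact Submodule.neg_mem _ (Submodule.sum_mem _ fun h _ => h₂ h _ (hW₂ (hf₂ h)))
    rw [hdis, Submodule.mem_bot] at hm
    rw [hm, zero_add] at h0
    funext h
    rw [← hfe, hi₁ f₁ hf₁ hm, hi₂ f₂ hf₂ h0, Pi.zero_apply, add_zero]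

/-- The translates of a free generating subspace form an internal direct sum. -/
theorem exists_isInternal [DecidableEq H] (τ : Representation k H V) (h : IsFreeOn τ ⊤) :
    ∃ W : Submodule k V, DirectSum.IsInternal (fun g : H => W.map (τ g)) := by
  classical
  obtain ⟨W, -, hs, hi⟩ := h
  refine ⟨W, ?_⟩
  have hsum : ∀ x : DirectSum H (fun g : H => ↥(W.map (τ g))),
      DirectSum.coeLinearMap (fun g : H => W.map (τ g)) x = ∑ g, (x g : V) := by
    intro x
    induction x using DirectSum.induction_on with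
    | zero => simp
    | of g y =>
      rw [DirectSum.coeLinearMap_of, Finset.sum_eq_single g
        (fun l _ hl => by rw [DirectSum.of_eq_of_ne _ _ _ hl]; rfl) (fun hh => absurd (Finset.mem_univ g) hh),
        DirectSum.of_eq_same]
    | add x y hx hy => simp [map_add, hx, hy, Finset.sum_add_distrib]
  show Function.Bijective (DirectSum.coeLinearMap fun g : H => W.map (τ g))
  constructor
  · refine (injective_iff_map_eq_zero _).2 fun x hx => ?_
    rw [hsum] at hx
    choose f hf hfe using fun g => Submodule.mem_map.1 (x g).2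
    simp_rw [← hfe] at hx
    refine DFinsupp.ext fun g => Subtype.ext ?_
    rw [← hfe g, congrFun (hi f hf hx) g]
    exact map_zero _
  · intro v
    obtain ⟨f, hf, rfl⟩ := hs v Submodule.mem_top
    refine ⟨∑ g, DirectSum.of (fun g : H => ↥(W.map (τ g))) g ⟨τ g (f g), Submodule.mem_map_of_mem (hf g)⟩, ?_⟩
    rw [map_sum]
    exact Finset.sum_congr rfl fun g _ => DirectSum.coeLinearMap_of _ _ _

/-- Semilinearity over a commutative Artinian algebra with trivial inertia gives freeness. -/
theorem isFreeOn_top_of_galois {R : Type*} [CommRing R] [IsArtinianRing R] [DecidableEq H]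
    [MulSemiringAction H R] (τ : Representation k H V) (ι : R →+* Module.End k V)
    (heq : ∀ (h : H) (r : R), τ h * ι r = ι (h • r) * τ h)
    (hfaith : ∀ m : Ideal R, m.IsMaximal → ∀ h : H, h ≠ 1 → (∀ r, r ∈ m ↔ h • r ∈ m) → ∃ r, h • r - r ∉ m) :
    IsFreeOn τ ⊤ := by
  classical
  obtain ⟨θ, hθ⟩ := exists_isUnit_groupMatrix (H := H) hfaith
  set M := groupMatrix (H := H) θ with hM
  let act : Matrix H H R → (H → V) → H → V := fun A x g => ∑ h, ι (A g h) (x h)
  have act_mul : ∀ (A B : Matrix H H R) x, act A (act B x) = act (A * B) x := by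
    intro A B x
    funext g
    simp only [act, map_sum, Matrix.mul_apply, LinearMap.sum_apply, map_mul, Module.End.mul_apply]
    exact Finset.sum_comm
  have act_one : ∀ x : H → V, act 1 x = x := by
    intro x
    funext g
    show ∑ h, ι ((1 : Matrix H H R) g h) (x h) = x g
    rw [Finset.sum_eq_single g (fun l _ hl => by rw [Matrix.one_apply_ne hl.symm, map_zero]; rfl)
      (fun hh => absurd (Finset.mem_univ g) hh), Matrix.one_apply_eq, map_one]
    rfl
  have heq' : ∀ (h : H) (r : R) (v : V), τ h (ι r v) = ι (h • r) (τ h v) := fun h r v =>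
    LinearMap.congr_fun (heq h r) v
  let F : Submodule k V := ⨅ h : H, LinearMap.eqLocus (τ h) LinearMap.id
  have hF : ∀ w, w ∈ F ↔ ∀ h, τ h w = w := fun w => by
    simp only [F, Submodule.mem_iInf, LinearMap.mem_eqLocus, LinearMap.id_apply]
  have hinj : ∀ x : H → V, act M x = 0 → x = 0 := by
    intro x hx
    rw [← act_one x, ← Matrix.nonsing_inv_mul M hθ, ← act_mul, hx]
    funext g
    simp [act]
  refine ⟨F.map (ι θ), le_top, fun v _ => ?_, fun f hf h0 => ?_⟩
  · set w := act M⁻¹ (fun g => τ g v) with hw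
    have hMw : act M w = fun g => τ g v := by rw [hw, act_mul, Matrix.mul_nonsing_inv M hθ, act_one]
    have hwF : ∀ h, w h ∈ F := by
      intro h
      refine (hF _).2 fun a => ?_
      have h1 : act M (fun l => τ a (w l)) = act M w := by
        funext g
        have h2 := congrArg (τ a) (congrFun hMw (a⁻¹ * g))
        simp only [act, map_sum, heq'] at h2
        rw [congrFun hMw g]
        refine Eq.trans ?_ (h2.trans ?_)
        · refine Finset.sum_congr rfl fun l _ => ?_
          congr 2
          show (g * l) • θ = a • (a⁻¹ * g * l) • θ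
          rw [smul_smul, mul_assoc a⁻¹, mul_inv_cancel_left]
        · rw [← Module.End.mul_apply, ← map_mul, mul_inv_cancel_left]
      have h2 := congrArg (act M⁻¹) h1
      rw [act_mul, act_mul, Matrix.nonsing_inv_mul M hθ, act_one, act_one] at h2
      exact congrFun h2 h
    refine ⟨fun h => ι θ (w h), fun h => Submodule.mem_map_of_mem (hwF h), ?_⟩
    have h1 := congrFun hMw 1
    simp only [map_one, Module.End.one_apply] at h1
    rw [← h1]
    refine Finset.sum_congr rfl fun h _ => ?_
    rw [heq', (hF _).1 (hwF h)]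
    show _ = ι ((1 * h) • θ) (w h)
    rw [one_mul]
  · choose w hwF hwe using fun h => Submodule.mem_map.1 (hf h)
    have hw0 : w = 0 := hinj w (by
      funext g
      have h2 := congrArg (τ g) h0
      simp only [map_sum, map_zero, ← hwe] at h2
      refine Eq.trans (Finset.sum_congr rfl fun h _ => ?_) h2
      rw [← Module.End.mul_apply, ← map_mul, heq', (hF _).1 (hwF h)]
      rfl)
    funext h
    rw [← hwe h, congrFun hw0 h]
    exact map_zero _

end CfsgLib.FrobModule
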